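import Mathlib

/-!
# Counting centralizer indices
-/

set_option autoImplicit false

namespace Cfsg.Agent.H504.CentIdx

variable {G : Type*} [Group G] [Finite G]

/-- If the numbers of the finite set `l` are orders of centralizers of noncentral elements, then there
are at least `|l|` indices of such centralizers. -/
theorem card_le (l : Finset ℕ)
    (h : ∀ c ∈ l, ∃ x : G, x ∉ Subgroup.center G ∧
      Nat.card (Subgroup.centralizer ({x} : Set G)) = c) :
    l.card ≤ Set.ncard {k : ℕ | ∃ x : G, x ∉ Subgroup.center G ∧
      k = (Subgroup.centralizer ({x} : Set G)).index} := by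
  have hfin : {k : ℕ | ∃ x : G, x ∉ Subgroup.center G ∧
      k = (Subgroup.centralizer ({x} : Set G)).index}.Finite := by
    refine (Set.finite_range (fun x : G => (Subgroup.centralizer ({x} : Set G)).index)).subset ?_
    rintro _ ⟨x, -, rfl⟩
    exact ⟨x, rfl⟩
  have hmul : ∀ c ∈ l, ∃ x : G, x ∉ Subgroup.center G ∧
      Nat.card G / c = (Subgroup.centralizer ({x} : Set G)).index ∧ 0 < c ∧
      c * (Nat.card G / c) = Nat.card G := by
    intro c hc
    obtain ⟨x, hx, hxc⟩ := h c hc
    have h1 := (Subgroup.centralizer ({x} : Set G)).card_mul_index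
    rw [hxc] at h1
    have h2 : 0 < c := by rw [← hxc]; exact Nat.card_pos
    refine ⟨x, hx, ?_, h2, ?_⟩
    · rw [← h1, Nat.mul_div_cancel_left _ h2]
    · exact Nat.mul_div_cancel' ⟨_, h1.symm⟩
  rw [← Set.ncard_coe_finset]
  refine Set.ncard_le_ncard_of_injOn (fun c => Nat.card G / c) ?_ ?_ hfin
  · intro c hc
    obtain ⟨x, hx, hxc, -, -⟩ := hmul c hc
    exact ⟨x, hx, hxc⟩
  · intro c hc d hd hcd
    obtain ⟨-, -, -, h1, h2⟩ := hmul c hc
    obtain ⟨-, -, -, h3, h4⟩ := hmul d hd
    have h5 : Nat.card G / c = Nat.card G / d := hcd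
    rw [← h5] at h4
    have h6 : 0 < Nat.card G / c := by
      rcases Nat.eq_zero_or_pos (Nat.card G / c) with h7 | h7
      · rw [h7, mul_zero] at h2
        exact absurd h2.symm Nat.card_pos.ne'
      · exact h7
    exact Nat.eq_of_mul_eq_mul_right h6 (h2.trans h4.symm)

omit [Finite G] in
/-- orders of centralizers are invariant under isomorphisms -/
theorem card_centralizer_equiv {H : Type*} [Group H] (e : G ≃* H) (x : G) :
    Nat.card (Subgroup.centralizer ({e x} : Set H)) =
      Nat.card (Subgroup.centralizer ({x} : Set G)) := by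
  have h : Subgroup.centralizer ({e x} : Set H) =
      (Subgroup.centralizer ({x} : Set G)).map e.toMonoidHom := by
    ext y
    constructor
    · intro hy
      refine ⟨e.symm y, ?_, by simp⟩
      rw [SetLike.mem_coe, Subgroup.mem_centralizer_singleton_iff] at *
      apply e.injective
      simpa using hy
    · rintro ⟨z, hz, rfl⟩
      rw [SetLike.mem_coe, Subgroup.mem_centralizer_singleton_iff] at *
      have := congrArg e hz
      simpa using this
  rw [h]
  exact (Nat.card_congr ((Subgroup.centralizer ({x} : Set G)).equivMapOfInjective e.toMonoidHom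
    e.injective).toEquiv).symm

end Cfsg.Agent.H504.CentIdx
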