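import Mathlib
import Cfsg.Agent.RuRed.SzRelMore
import Cfsg.Agent.OddCyclic.ClaimC.SzIso
import Cfsg.Agent.S0333
import Cfsg.Agent.H504.CentIdx

/-!
# Suzuki groups have at least five noncentral class sizes
-/

set_option autoImplicit false

namespace Cfsg.Agent.H504.SzFive

open Cfsg.Agent Cfsg.Agent.ThreePrime Cfsg.Agent.H504.CentIdx

theorem aux {F : Type*} [Field F] [Fintype F] {m : ℕ} (hm : 1 ≤ m)
    (hF : Fintype.card F = 2 ^ (2 * m + 1)) {J : Type*} [Group J] [Finite J] (R : SzRel.Rel J F)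
    (e : ↥(Cfsg.Sz F m) ≃* J) :
    5 ≤ Set.ncard {k : ℕ | ∃ x : J, x ∉ Subgroup.center J ∧
      k = (Subgroup.centralizer ({x} : Set J)).index} := by
  classical
  have hcardF : Nat.card F = 2 ^ (2 * m + 1) := by rw [Nat.card_eq_fintype_card, hF]
  have h8 : 8 ≤ Nat.card F := by
    rw [hcardF]; exact SzRel.Rel.eight_le hm
  have hcen : ∀ x : J, x ≠ 1 → x ∉ Subgroup.center J := by
    intro x hx hxc
    exact hx (R.center_trivial fun y => (Subgroup.mem_center_iff.mp hxc y).symm)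
  -- `u 0 1`
  have hT1 : Subgroup.centralizer ({R.u 0 1} : Set J) = R.T := by
    ext g
    rw [Subgroup.mem_centralizer_singleton_iff]
    constructor
    · intro h
      exact R.mem_T_of_comm (R.u_mem 0 1) (R.u_ne_one one_ne_zero) h
    · intro h
      exact (R.Z_central (R.u_zero_mem_Z 1) h).symm
  have hcT : Nat.card R.T = Nat.card F * Nat.card F := R.card_T
  -- `u 1 0`
  have hu1 : R.u 1 0 ≠ 1 := by
    intro h
    rw [← R.u_zero] at h
    exact one_ne_zero (R.u_inj h).1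
  have hT2 : Subgroup.centralizer ({R.u 1 0} : Set J) < R.T := by
    refine lt_of_le_of_ne ?_ ?_
    · intro g hg
      rw [Subgroup.mem_centralizer_singleton_iff] at hg
      exact R.mem_T_of_comm (R.u_mem 1 0) hu1 hg
    · intro h
      obtain ⟨x, hx⟩ := R.exists_theta_ne h8
      have h1 : R.u x 0 ∈ Subgroup.centralizer ({R.u 1 0} : Set J) := by
        rw [h]; exact R.u_mem x 0
      rw [Subgroup.mem_centralizer_singleton_iff, R.comm_iff, map_one] at h1
      apply hx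
      rw [mul_one, one_mul] at h1
      exact h1.symm
  have hc2lt : Nat.card (Subgroup.centralizer ({R.u 1 0} : Set J)) < Nat.card F * Nat.card F := by
    rw [← hcT]
    refine lt_of_le_of_ne (Subgroup.card_le_of_le hT2.le) ?_
    intro h
    exact hT2.ne (Subgroup.eq_of_le_of_card_ge hT2.le h.ge)
  have hc2even : 2 ∣ Nat.card (Subgroup.centralizer ({R.u 1 0} : Set J)) := by
    have h1 : R.u 0 1 ∈ Subgroup.centralizer ({R.u 1 0} : Set J) := by
      rw [Subgroup.mem_centralizer_singleton_iff]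
      exact R.Z_central (R.u_zero_mem_Z 1) (R.u_mem 1 0)
    have h2 : orderOf (R.u 0 1) = 2 :=
      orderOf_eq_prime (by rw [pow_two]; exact (R.u_sq_iff 0 1).2 rfl)
        (R.u_ne_one one_ne_zero)
    have h3 := Subgroup.orderOf_dvd_natCard _ h1
    rwa [h2] at h3
  -- `d k`
  obtain ⟨k, hk⟩ : ∃ k : Fˣ, k ≠ 1 := by
    obtain ⟨x, hx⟩ := R.exists_theta_ne h8
    have hx0 : x ≠ 0 := by rintro rfl; exact hx (map_zero _)
    refine ⟨Units.mk0 x hx0, ?_⟩
    intro h
    have : x = 1 := by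
      have := congrArg (fun u : Fˣ => (u : F)) h
      simpa using this
    rw [this, map_one] at hx
    exact hx rfl
  have hdk : R.d k ≠ 1 := by
    intro h
    rw [← R.d_one] at h
    exact hk (R.d_inj h)
  have hcD : Subgroup.centralizer ({R.d k} : Set J) = R.D := by
    ext g
    rw [Subgroup.mem_centralizer_singleton_iff]
    constructor
    · intro h
      exact R.cent_d hk h
    · rintro ⟨l, rfl⟩
      rw [R.d_mul, R.d_mul, mul_comm]
  have hcardD : Nat.card R.D = Nat.card F - 1 := R.card_D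
  -- the cyclic tori
  have htor : ∀ c ∈ ({2 ^ (2 * m + 1) + 2 ^ (m + 1) + 1, 2 ^ (2 * m + 1) - 2 ^ (m + 1) + 1} : Set ℕ),
      1 < c → ∃ x : J, x ≠ 1 ∧ Nat.card (Subgroup.centralizer ({x} : Set J)) = c := by
    intro c hc hc1
    obtain ⟨U, -, hU, hUc, -⟩ := S0333.result hm hF c hc
    have hnt : Nontrivial U := by
      rw [← Finite.one_lt_card_iff_nontrivial, hU]; exact hc1
    obtain ⟨⟨u, hu⟩, hu1⟩ := exists_ne (1 : U)
    have hu1' : u ≠ 1 := fun h => hu1 (Subtype.ext h)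
    refine ⟨e u, ?_, ?_⟩
    · intro h
      apply hu1'
      exact e.injective (h.trans (map_one e).symm)
    · rw [card_centralizer_equiv e u, hUc u hu hu1', hU]
  have hq : 2 ^ (m + 1) < 2 ^ (2 * m + 1) := Nat.pow_lt_pow_right (by norm_num) (by omega)
  have hq4 : 4 ≤ 2 ^ (m + 1) := by
    calc 4 = 2 ^ 2 := by norm_num
      _ ≤ 2 ^ (m + 1) := Nat.pow_le_pow_right (by norm_num) (by omega)
  have hqe : 2 ∣ 2 ^ (2 * m + 1) := dvd_pow_self 2 (by omega)
  have hre : 2 ∣ 2 ^ (m + 1) := dvd_pow_self 2 (by omega)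
  obtain ⟨x4, hx4, hc4⟩ := htor _ (Or.inl rfl) (by omega)
  obtain ⟨x5, hx5, hc5⟩ := htor _ (Or.inr rfl) (by omega)
  rw [hcardF] at hcT hc2lt hcardD h8
  clear htor
  generalize 2 ^ (2 * m + 1) = q at *
  generalize 2 ^ (m + 1) = r at *
  obtain ⟨c2, hc2def⟩ : ∃ c, c = Nat.card (Subgroup.centralizer ({R.u 1 0} : Set J)) := ⟨_, rfl⟩
  rw [← hc2def] at hc2lt hc2even
  have hqq : 2 ∣ q * q := Dvd.dvd.mul_right hqe q
  have hqq2 : 8 * q ≤ q * q := Nat.mul_le_mul_right q h8
  have hl : ({q * q, c2, q - 1, q + r + 1, q - r + 1} : Finset ℕ).card = 5 := by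
    have h1 : q * q ∉ ({c2, q - 1, q + r + 1, q - r + 1} : Finset ℕ) := by
      simp only [Finset.mem_insert, Finset.mem_singleton, not_or]
      refine ⟨?_, ?_, ?_, ?_⟩ <;> omega
    have h2 : c2 ∉ ({q - 1, q + r + 1, q - r + 1} : Finset ℕ) := by
      simp only [Finset.mem_insert, Finset.mem_singleton, not_or]
      refine ⟨?_, ?_, ?_⟩ <;> omega
    have h3 : q - 1 ∉ ({q + r + 1, q - r + 1} : Finset ℕ) := by
      simp only [Finset.mem_insert, Finset.mem_singleton, not_or]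
      refine ⟨?_, ?_⟩ <;> omega
    have h4 : q + r + 1 ∉ ({q - r + 1} : Finset ℕ) := by
      simp only [Finset.mem_singleton]
      omega
    rw [Finset.card_insert_of_notMem h1, Finset.card_insert_of_notMem h2,
      Finset.card_insert_of_notMem h3, Finset.card_insert_of_notMem h4, Finset.card_singleton]
  rw [← hl]
  refine card_le _ ?_
  intro c hc
  simp only [Finset.mem_insert, Finset.mem_singleton] at hc
  rcases hc with rfl | rfl | rfl | rfl | rfl
  · exact ⟨R.u 0 1, hcen _ (R.u_ne_one one_ne_zero), by rw [hT1]; exact hcT⟩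
  · exact ⟨R.u 1 0, hcen _ hu1, hc2def.symm⟩
  · exact ⟨R.d k, hcen _ hdk, by rw [hcD]; exact hcardD⟩
  · exact ⟨x4, hcen _ hx4, hc4⟩
  · exact ⟨x5, hcen _ hx5, hc5⟩

theorem sz_five {F : Type} [Field F] [Fintype F] {m : ℕ} (hm : 1 ≤ m)
    (hF : Fintype.card F = 2 ^ (2 * m + 1)) :
    5 ≤ Set.ncard {k : ℕ | ∃ x : ↥(Cfsg.Lie.Sz F (2 ^ (m + 1))),
      x ∉ Subgroup.center (↥(Cfsg.Lie.Sz F (2 ^ (m + 1)))) ∧
      k = (Subgroup.centralizer ({x} : Set (↥(Cfsg.Lie.Sz F (2 ^ (m + 1)))))).index} := by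
  obtain ⟨e⟩ := OddCyclic.ClaimC.SzIso.iso (F := F) hm hF
  exact aux hm hF (SzRel.ofGood (LieRecognition.SzMatrix.good hF)) e

end Cfsg.Agent.H504.SzFive
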