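import Cfsg.Agent.H504.TwoExt
import Cfsg.Agent.H686.CharKit
import Cfsg.Agent.CharactersDeep.CosetAverage

/-!
# S4897: normal subgroups with a given quotient

`π : G →* Q` is surjective, `N = π.ker`.

* `One π g` : all elements of the coset of `g` are conjugate to `g`.
* `zero_of_one` : characters of `G` that do not come from `Q` vanish at `g` if `One π g`.
* `card_cent_of_one` : `|C_G(g)| = |C_Q(π g)|`.
* `fib π c` : the number of classes of `G` above the class `c` of `Q`; `sum_fib_le_zc`.
* `card_mul_le_fib` : `|C_N(g)| o(π g) ≤ fib |C_Q(π g)|` if `N` is abelian.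
-/

set_option autoImplicit false
set_option linter.unusedSectionVars false

open scoped ComplexConjugate

namespace Cfsg.Agent.H504.TwoZ

open Cfsg Cfsg.Agent.Characters.Core Cfsg.Agent.H504.ZeroTI Cfsg.Agent.H504.Zeros

universe u v

variable {G : Type u} [Group G] [Finite G] {Q : Type v} [Group Q] (π : G →* Q)

/-- all elements above `π g` are conjugate to `g` -/
def One (g : G) : Prop := ∀ h : G, π h = π g → IsConj g h

/-- `χ` does not come from `Q` -/
def Faith (χ : IrrCharacter G) : Prop := ¬ ∃ ψ : IrrCharacter Q, (χ : G → ℂ) = (ψ : Q → ℂ) ∘ π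

/-- characters of `Q` as characters of `G` -/
def inf (hπ : Function.Surjective π) (ψ : IrrCharacter Q) : IrrCharacter G :=
  ⟨(ψ : Q → ℂ) ∘ π, isIrr_comp π hπ ψ.2⟩

theorem inf_injective (hπ : Function.Surjective π) : Function.Injective (inf π hπ) := by
  intro a b h
  have h3 : (a : Q → ℂ) ∘ π = (b : Q → ℂ) ∘ π := congrArg Subtype.val h
  exact Subtype.ext (hπ.injective_comp_right h3)

theorem faith_ne_inf (hπ : Function.Surjective π) {χ : IrrCharacter G} (h : Faith π χ) (ψ : IrrCharacter Q) :
    χ ≠ inf π hπ ψ := by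
  rintro rfl
  exact h ⟨ψ, rfl⟩

/-- the number of characters that do not come from `Q` -/
theorem card_faith (hπ : Function.Surjective π) :
    Nat.card {χ : IrrCharacter G // Faith π χ} + Nat.card (ConjClasses Q) = Nat.card (ConjClasses G) := by
  classical
  have hQ : Finite Q := Finite.of_surjective π hπ
  have := finite_irr (G := G)
  have := finite_irr (G := Q)
  rw [← card_classes_eq (G := Q), ← card_classes_eq (G := G)]
  have e : {χ : IrrCharacter G // ¬ Faith π χ} ≃ IrrCharacter Q := by
    refine (Equiv.ofBijective (fun ψ : IrrCharacter Q => (⟨inf π hπ ψ, fun h => h ⟨ψ, rfl⟩⟩ :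
      {χ : IrrCharacter G // ¬ Faith π χ})) ⟨?_, ?_⟩).symm
    · intro a b h
      exact inf_injective π hπ (congrArg Subtype.val h)
    · rintro ⟨χ, hχ⟩
      obtain ⟨ψ, hψ⟩ := not_not.1 hχ
      exact ⟨ψ, Subtype.ext (Subtype.ext hψ.symm)⟩
  rw [← Nat.card_congr e, ← Nat.card_sum]
  exact Nat.card_congr (Equiv.sumCompl _)

/-- a character constant on the cosets of the kernel comes from `Q` -/
theorem not_faith_of_invariant (hπ : Function.Surjective π) {χ : IrrCharacter G}
    (h : ∀ n ∈ π.ker, (χ : G → ℂ) n = (χ : G → ℂ) 1) : ¬ Faith π χ := by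
  intro hf
  obtain ⟨ψ, hψ⟩ := Cfsg.Agent.H686.CharKit.exists_infl π.ker χ (fun n hn => h n hn)
  let e := QuotientGroup.quotientKerEquivOfSurjective π hπ
  apply hf
  refine ⟨⟨(ψ : G ⧸ π.ker → ℂ) ∘ e.symm, isIrr_comp e.symm.toMonoidHom e.symm.surjective ψ.2⟩, ?_⟩
  funext g
  have h1 : e.symm (π g) = (g : G ⧸ π.ker) := by
    rw [MulEquiv.symm_apply_eq]
    rfl
  show (χ : G → ℂ) g = (ψ : G ⧸ π.ker → ℂ) (e.symm (π g))
  rw [h1, ← hψ]
  rfl

/-- **characters that do not come from `Q` vanish at `g` if `One π g`** -/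
theorem zero_of_one (hπ : Function.Surjective π) {χ : IrrCharacter G} (hχ : Faith π χ) {g : G}
    (hg : One π g) : (χ : G → ℂ) g = 0 := by
  classical
  let _ := Fintype.ofFinite G
  let _ := Fintype.ofFinite π.ker
  have h1 : IsIrrCharacter π.ker (fun n : π.ker => (fun _ => 1 : G → ℂ) n) := isIrr_one
  rcases Cfsg.Agent.CharactersDeep.CosetAverage.cosetAverage_dichotomy π.ker (fun _ => 1 : G → ℂ)
    isIrr_one h1 (χ : G → ℂ) χ.2 _ rfl with ⟨-, h2⟩ | ⟨-, -, h2⟩
  · have h3 := congrFun h2 g
    have h4 : ∀ n : π.ker, (χ : G → ℂ) ((n : G) * g) = (χ : G → ℂ) g := by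
      intro n
      obtain ⟨c, hc⟩ := isConj_iff.1 (hg ((n : G) * g) (by
        rw [map_mul, show π (n : G) = 1 from n.2, one_mul]))
      rw [← hc]
      exact isCharacter_isClassFunction (isIrr_isCharacter χ.2) _ _
    simp only [map_one, mul_one, Pi.zero_apply] at h3
    rw [Finset.sum_congr rfl fun n _ => h4 n, Finset.sum_const, Finset.card_univ, nsmul_eq_mul,
      ← mul_assoc, Nat.card_eq_fintype_card, inv_mul_cancel₀, one_mul] at h3
    · exact h3
    · exact_mod_cast Fintype.card_ne_zero
  · exfalso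
    refine not_faith_of_invariant π hπ (fun n hn => ?_) hχ
    have h3 := congrFun h2 n
    have h4 := congrFun h2 1
    rw [h3, h4]
    simp only [Pi.mul_apply, one_mul, map_one, mul_one]
    congr 1
    exact Fintype.sum_equiv (Equiv.mulRight (⟨n, hn⟩ : π.ker)) _ _ fun m => rfl

theorem card_class_mul {X : Type*} [Group X] [Finite X] (g : X) : Nat.card {h : X // IsConj g h} *
    Nat.card (Subgroup.centralizer ({g} : Set X)) = Nat.card X := by
  have h1 : Nat.card {h : X // IsConj g h} = (MulAction.stabilizer (ConjAct X) g).index := by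
    rw [MulAction.index_stabilizer]
    have h2 : MulAction.orbit (ConjAct X) g = {h : X | IsConj g h} := by
      ext h
      rw [ConjAct.mem_orbit_conjAct]
      exact isConj_comm
    rw [h2]
    rfl
  rw [h1, Subgroup.nat_card_centralizer_nat_card_stabilizer, mul_comm]
  exact Subgroup.card_mul_index _

theorem card_fiber (hπ : Function.Surjective π) (q : Q) : Nat.card {h : G // π h = q} = Nat.card π.ker := by
  obtain ⟨g, rfl⟩ := hπ q
  refine (Nat.card_congr (Equiv.ofBijective (fun n : π.ker => (⟨(n : G) * g, by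
    rw [map_mul, show π (n : G) = 1 from n.2, one_mul]⟩ : {h : G // π h = π g})) ⟨?_, ?_⟩)).symm
  · intro a b h
    have h1 : (a : G) * g = b * g := congrArg Subtype.val h
    exact Subtype.ext (mul_right_cancel h1)
  · rintro ⟨h, hh⟩
    refine ⟨⟨h * g⁻¹, ?_⟩, ?_⟩
    · rw [MonoidHom.mem_ker, map_mul, map_inv, hh, mul_inv_cancel]
    · apply Subtype.ext
      simp

theorem card_preimage (hπ : Function.Surjective π) (P : Q → Prop) :
    Nat.card {h : G // P (π h)} = Nat.card π.ker * Nat.card {q : Q // P q} := by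
  classical
  have hQ : Finite Q := Finite.of_surjective π hπ
  have e : {h : G // P (π h)} ≃ Σ q : {q : Q // P q}, {h : G // π h = q} :=
    { toFun := fun h => ⟨⟨π h, h.2⟩, ⟨h, rfl⟩⟩
      invFun := fun x => ⟨x.2, by rw [x.2.2]; exact x.1.2⟩
      left_inv := fun h => rfl
      right_inv := by
        rintro ⟨⟨q, hq⟩, ⟨h, hh⟩⟩
        have hh' : π h = q := hh
        subst hh'
        rfl }
  have := Fintype.ofFinite {q : Q // P q}
  rw [Nat.card_congr e, Nat.card_sigma]
  have h1 : ∀ q : {q : Q // P q}, Nat.card {h : G // π h = q} = Nat.card π.ker :=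
    fun q => card_fiber π hπ (q : Q)
  simp only [h1]
  rw [Finset.sum_const, smul_eq_mul, Finset.card_univ, ← Nat.card_eq_fintype_card, mul_comm]

theorem card_eq_ker_mul (hπ : Function.Surjective π) : Nat.card G = Nat.card π.ker * Nat.card Q := by
  have h := card_preimage π hπ (fun _ => True)
  rwa [Nat.card_congr (Equiv.subtypeUnivEquiv fun _ => trivial),
    Nat.card_congr (Equiv.subtypeUnivEquiv fun _ => trivial)] at h

/-- the elements above the class of `π g` -/
theorem card_above (hπ : Function.Surjective π) (g : G) : Nat.card {h : G // IsConj (π g) (π h)} *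
    Nat.card (Subgroup.centralizer ({π g} : Set Q)) = Nat.card G := by
  have hQ : Finite Q := Finite.of_surjective π hπ
  rw [card_preimage π hπ (fun q => IsConj (π g) q), mul_assoc, card_class_mul, ← card_eq_ker_mul π hπ]

theorem One.conj_iff (hπ : Function.Surjective π) {g : G} (hg : One π g) (h : G) :
    IsConj g h ↔ IsConj (π g) (π h) := by
  refine ⟨fun h' => isConj_map π h', fun h' => ?_⟩
  obtain ⟨c, hc⟩ := _root_.isConj_iff.1 h'
  obtain ⟨k, rfl⟩ := hπ c
  have h1 : IsConj g (k⁻¹ * h * k) := hg _ (by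
    rw [map_mul, map_mul, map_inv, ← hc]
    group)
  refine h1.trans (isConj_iff.2 ⟨k, by group⟩)

theorem card_cent_of_one (hπ : Function.Surjective π) {g : G} (hg : One π g) :
    Nat.card (Subgroup.centralizer ({g} : Set G)) = Nat.card (Subgroup.centralizer ({π g} : Set Q)) := by
  have h1 := card_class_mul g
  have h2 := card_above π hπ g
  rw [Nat.card_congr (Equiv.subtypeEquivRight fun h => One.conj_iff π hπ hg h)] at h1
  have h3 : 0 < Nat.card {h : G // IsConj (π g) (π h)} := by
    have : Nonempty {h : G // IsConj (π g) (π h)} := ⟨⟨g, IsConj.refl _⟩⟩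
    exact Nat.card_pos
  exact Nat.eq_of_mul_eq_mul_left h3 (h1.trans h2.symm)

/-- the number of elements of the kernel that commute with `g` -/
noncomputable def cN (g : G) : ℕ := Nat.card {n : π.ker // (n : G) * g = g * n}

theorem cN_pos (g : G) : 0 < cN π g := by
  have : Nonempty {n : π.ker // (n : G) * g = g * n} := ⟨⟨1, by simp⟩⟩
  exact Nat.card_pos

theorem cN_eq_one_iff (g : G) : cN π g = 1 ↔ ∀ n ∈ π.ker, n * g = g * n → n = 1 := by
  unfold cN
  constructor
  · intro h n hn hng
    have h1 := (Nat.card_eq_one_iff_unique.1 h).1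
    have h2 : (⟨⟨n, hn⟩, hng⟩ : {n : π.ker // (n : G) * g = g * n}) = ⟨1, by simp⟩ := Subsingleton.elim _ _
    exact congrArg (fun x => ((x.1 : π.ker) : G)) h2
  · intro h
    rw [Nat.card_eq_one_iff_unique]
    refine ⟨⟨fun a b => ?_⟩, ⟨⟨1, by simp⟩⟩⟩
    have ha := h _ a.1.2 a.2
    have hb := h _ b.1.2 b.2
    exact Subtype.ext (Subtype.ext (ha.trans hb.symm))

/-- `o(π g) |C_N(g)| ≤ |C_G(g)|` -/
theorem mul_le_cent (g : G) : orderOf (π g) * cN π g ≤ Nat.card (Subgroup.centralizer ({g} : Set G)) := by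
  classical
  set C := Subgroup.centralizer ({g} : Set G) with hC
  let f : C →* Q := π.comp C.subtype
  have h1 : Nat.card C = Nat.card f.range * Nat.card f.ker := by
    rw [← Subgroup.index_ker, mul_comm, Subgroup.card_mul_index]
  have h2 : Nat.card f.ker = cN π g := by
    unfold cN
    refine Nat.card_congr (Equiv.ofBijective (fun x : f.ker => (⟨⟨(x : C), x.2⟩, by
      exact (Subgroup.mem_centralizer_iff.1 (x : C).2 g (Set.mem_singleton g)).symm⟩ :
        {n : π.ker // (n : G) * g = g * n})) ⟨?_, ?_⟩)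
    · intro a b hab
      have h3 : ((a : C) : G) = ((b : C) : G) := congrArg (fun x => ((x.1 : π.ker) : G)) hab
      exact Subtype.ext (Subtype.ext h3)
    · rintro ⟨⟨n, hn⟩, hng⟩
      refine ⟨⟨⟨n, ?_⟩, hn⟩, rfl⟩
      rw [hC, Subgroup.mem_centralizer_iff]
      intro x hx
      rw [Set.mem_singleton_iff.1 hx]
      exact hng.symm
  have h3 : orderOf (π g) ≤ Nat.card f.range := by
    rw [← Nat.card_zpowers]
    have h4 : Subgroup.zpowers (π g) ≤ f.range := by
      rw [Subgroup.zpowers_le]
      exact ⟨⟨g, Subgroup.mem_centralizer_iff.2 fun x hx => by rw [Set.mem_singleton_iff.1 hx]⟩, rfl⟩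
    have hfin : Finite f.range := Finite.of_surjective f.rangeRestrict f.rangeRestrict_surjective
    exact Nat.card_le_card_of_injective _ (Subgroup.inclusion_injective h4)
  rw [h1, h2]
  exact Nat.mul_le_mul_right _ h3

/-- `One` and a cyclic centralizer: no fixed points -/
theorem cN_eq_one_of_one (hπ : Function.Surjective π) {g : G} (hg : One π g)
    (hc : Nat.card (Subgroup.centralizer ({π g} : Set Q)) = orderOf (π g)) : cN π g = 1 := by
  have hQ : Finite Q := Finite.of_surjective π hπ
  have h1 := mul_le_cent π g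
  rw [card_cent_of_one π hπ hg, hc] at h1
  have h2 := cN_pos π g
  have h3 : 0 < orderOf (π g) := orderOf_pos _
  have h4 : cN π g ≤ 1 := Nat.le_of_mul_le_mul_left (by simpa using h1) h3
  omega

/-- no fixed points: `One` -/
theorem one_of_cN (hπ : Function.Surjective π) {g : G} (hg : cN π g = 1) : One π g := by
  rw [cN_eq_one_iff] at hg
  let f : π.ker → {h : G // π h = π g} := fun n => ⟨(n : G) * g * (n : G)⁻¹, by
    rw [map_mul, map_mul, map_inv, show π (n : G) = 1 from n.2]
    simp⟩
  have hf : Function.Injective f := by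
    intro a b hab
    have h1 : (a : G) * g * (a : G)⁻¹ = b * g * (b : G)⁻¹ := congrArg Subtype.val hab
    have h2 : ((b : G)⁻¹ * a) * g = g * ((b : G)⁻¹ * a) := by
      calc ((b : G)⁻¹ * a) * g = (b : G)⁻¹ * ((a : G) * g * (a : G)⁻¹) * a := by group
        _ = (b : G)⁻¹ * (b * g * (b : G)⁻¹) * a := by rw [h1]
        _ = g * ((b : G)⁻¹ * a) := by group
    have h3 := hg _ (π.ker.mul_mem (π.ker.inv_mem b.2) a.2) h2
    exact Subtype.ext ((inv_mul_eq_one.1 h3).symm)
  have hcard := card_fiber π hπ (π g)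
  have hsurj : Function.Surjective f := by
    have hb : Function.Bijective f := by
      rw [Nat.bijective_iff_injective_and_card]
      exact ⟨hf, hcard.symm⟩
    exact hb.2
  intro h hh
  obtain ⟨n, hn⟩ := hsurj ⟨h, hh⟩
  exact isConj_iff.2 ⟨n, congrArg Subtype.val hn⟩

/-! ### The number of classes above a class -/

/-- the number of classes of `G` above `c` -/
noncomputable def fib (c : ConjClasses Q) : ℕ := Nat.card {d : ConjClasses G // ConjClasses.map π d = c}

theorem map_mk (g : G) : ConjClasses.map π (ConjClasses.mk g) = ConjClasses.mk (π g) := rfl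

theorem sum_fib (T : Finset (ConjClasses Q)) :
    ∑ c ∈ T, fib π c = Nat.card {d : ConjClasses G // ConjClasses.map π d ∈ T} := by
  classical
  have e : {d : ConjClasses G // ConjClasses.map π d ∈ T} ≃
      Σ c : T, {d : ConjClasses G // ConjClasses.map π d = c} :=
    { toFun := fun h => ⟨⟨_, h.2⟩, ⟨h, rfl⟩⟩
      invFun := fun x => ⟨x.2, by rw [x.2.2]; exact x.1.2⟩
      left_inv := fun h => rfl
      right_inv := by
        rintro ⟨⟨q, hq⟩, ⟨h, hh⟩⟩
        have hh' : ConjClasses.map π h = q := hh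
        subst hh'
        rfl }
  rw [Nat.card_congr e, Nat.card_sigma, ← Finset.sum_coe_sort]
  rfl

theorem sum_fib_le_zc (hπ : Function.Surjective π) (ψ : IrrCharacter Q) (T : Finset (ConjClasses Q))
    (hT : ∀ q : Q, ConjClasses.mk q ∈ T → (ψ : Q → ℂ) q = 0) : ∑ c ∈ T, fib π c ≤ zc (inf π hπ ψ) := by
  rw [sum_fib]
  refine Nat.card_le_card_of_injective (fun d => ⟨d.1, fun g hg => ?_⟩) ?_
  · refine hT (π g) ?_
    rw [← map_mk, hg]
    exact d.2
  · intro a b hab
    have h1 := congrArg Subtype.val hab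
    exact Subtype.ext h1

theorem fib_pos (hπ : Function.Surjective π) (c : ConjClasses Q) : 0 < fib π c := by
  obtain ⟨q, rfl⟩ := ConjClasses.exists_rep c
  obtain ⟨g, rfl⟩ := hπ q
  have : Nonempty {d : ConjClasses G // ConjClasses.map π d = ConjClasses.mk (π g)} :=
    ⟨⟨ConjClasses.mk g, rfl⟩⟩
  exact Nat.card_pos

theorem card_classes_eq_sum [Fintype (ConjClasses Q)] :
    Nat.card (ConjClasses G) = ∑ c : ConjClasses Q, fib π c := by
  rw [sum_fib]
  exact (Nat.card_congr (Equiv.subtypeUnivEquiv fun _ => Finset.mem_univ _)).symm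

theorem fib_eq_one_iff (hπ : Function.Surjective π) (g : G) :
    fib π (ConjClasses.mk (π g)) = 1 ↔ One π g := by
  constructor
  · intro h x hx
    have h1 := (Nat.card_eq_one_iff_unique.1 h).1
    have h2 : (⟨ConjClasses.mk g, rfl⟩ : {d : ConjClasses G // ConjClasses.map π d = ConjClasses.mk (π g)}) =
      ⟨ConjClasses.mk x, by rw [map_mk, hx]⟩ := Subsingleton.elim _ _
    exact ConjClasses.mk_eq_mk_iff_isConj.1 (congrArg Subtype.val h2)
  · intro h
    unfold fib
    rw [Nat.card_eq_one_iff_unique]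
    refine ⟨⟨fun a b => ?_⟩, ⟨⟨ConjClasses.mk g, rfl⟩⟩⟩
    have key : ∀ d : {d : ConjClasses G // ConjClasses.map π d = ConjClasses.mk (π g)},
        d.1 = ConjClasses.mk g := by
      rintro ⟨d, hd⟩
      obtain ⟨x, rfl⟩ := ConjClasses.exists_rep d
      rw [map_mk, ConjClasses.mk_eq_mk_iff_isConj] at hd
      exact (ConjClasses.mk_eq_mk_iff_isConj.2 ((One.conj_iff π hπ h x).2 hd.symm)).symm
    exact Subtype.ext ((key a).trans (key b).symm)

/-- the kernel is abelian -/
def AbK : Prop := ∀ a ∈ π.ker, ∀ b ∈ π.ker, a * b = b * a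

theorem cN_conj (g k : G) : cN π (k * g * k⁻¹) = cN π g := by
  unfold cN
  refine (Nat.card_congr (Equiv.subtypeEquiv (MulAut.conjNormal k : MulAut π.ker).toEquiv fun n => ?_)).symm
  show (n : G) * g = g * n ↔ ((MulAut.conjNormal k n : π.ker) : G) * _ = _
  rw [MulAut.conjNormal_apply]
  constructor
  · intro h
    calc k * n * k⁻¹ * (k * g * k⁻¹) = k * (n * g) * k⁻¹ := by group
      _ = k * (g * n) * k⁻¹ := by rw [h]
      _ = _ := by
        show k * (g * n) * k⁻¹ = k * g * k⁻¹ * ((MulAut.conjNormal k n : π.ker) : G)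
        rw [MulAut.conjNormal_apply]
        group
  · intro h
    have h1 : k * (n * g) * k⁻¹ = k * (g * n) * k⁻¹ := by
      calc k * (n * g) * k⁻¹ = k * n * k⁻¹ * (k * g * k⁻¹) := by group
        _ = k * g * k⁻¹ * ((MulAut.conjNormal k n : π.ker) : G) := h
        _ = k * (g * n) * k⁻¹ := by
          rw [MulAut.conjNormal_apply]
          group
    exact mul_left_cancel (mul_right_cancel h1)

theorem cN_mul (hA : AbK π) (g : G) {n : G} (hn : n ∈ π.ker) : cN π (g * n) = cN π g := by
  unfold cN
  refine Nat.card_congr (Equiv.subtypeEquivRight fun m => ?_)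
  have hc := hA m m.2 n hn
  constructor
  · intro h
    have h1 : (m : G) * g * n = g * m * n := by
      calc (m : G) * g * n = m * (g * n) := by group
        _ = g * n * m := h
        _ = g * (m * n) := by rw [hc]; group
        _ = g * m * n := by group
    exact mul_right_cancel h1
  · intro h
    calc (m : G) * (g * n) = m * g * n := by group
      _ = g * m * n := by rw [h]
      _ = g * (m * n) := by group
      _ = g * n * m := by rw [hc]; group

theorem cN_of_isConj (hπ : Function.Surjective π) (hA : AbK π) {g h : G} (hgh : IsConj (π g) (π h)) :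
    cN π h = cN π g := by
  obtain ⟨c, hc⟩ := isConj_iff.1 hgh
  obtain ⟨k, rfl⟩ := hπ c
  have h1 : g⁻¹ * (k⁻¹ * h * k) ∈ π.ker := by
    rw [MonoidHom.mem_ker, map_mul, map_mul, map_mul, map_inv, map_inv, ← hc]
    group
  have h2 : h = k * (g * (g⁻¹ * (k⁻¹ * h * k))) * k⁻¹ := by group
  rw [h2, cN_conj, cN_mul π hA g h1]

/-- **`o(π g) |C_N(g)| ≤ fib |C_Q(π g)|`** -/
theorem card_mul_le_fib (hπ : Function.Surjective π) (hA : AbK π) (g : G) :
    orderOf (π g) * cN π g ≤
      fib π (ConjClasses.mk (π g)) * Nat.card (Subgroup.centralizer ({π g} : Set Q)) := by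
  classical
  have hQ : Finite Q := Finite.of_surjective π hπ
  set o := orderOf (π g) * cN π g with ho
  have e : {h : G // IsConj (π g) (π h)} ≃ Σ d : {d : ConjClasses G // ConjClasses.map π d = ConjClasses.mk (π g)},
      {h : G // ConjClasses.mk h = d.1} :=
    { toFun := fun h => ⟨⟨ConjClasses.mk h, by
        rw [map_mk, ConjClasses.mk_eq_mk_iff_isConj]; exact h.2.symm⟩, ⟨h, rfl⟩⟩
      invFun := fun x => ⟨x.2, by
        have h1 := x.1.2
        rw [← x.2.2, map_mk, ConjClasses.mk_eq_mk_iff_isConj] at h1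
        exact h1.symm⟩
      left_inv := fun h => rfl
      right_inv := by
        rintro ⟨⟨d, hd⟩, ⟨h, hh⟩⟩
        have hh' : ConjClasses.mk h = d := hh
        subst hh'
        rfl }
  have hfin : Finite {d : ConjClasses G // ConjClasses.map π d = ConjClasses.mk (π g)} := inferInstance
  have := Fintype.ofFinite {d : ConjClasses G // ConjClasses.map π d = ConjClasses.mk (π g)}
  have h1 : Nat.card {h : G // IsConj (π g) (π h)} * o ≤ fib π (ConjClasses.mk (π g)) * Nat.card G := by
    rw [Nat.card_congr e, Nat.card_sigma, Finset.sum_mul]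
    have h2 : fib π (ConjClasses.mk (π g)) * Nat.card G =
        ∑ _d : {d : ConjClasses G // ConjClasses.map π d = ConjClasses.mk (π g)}, Nat.card G := by
      rw [Finset.sum_const, smul_eq_mul, Finset.card_univ, ← Nat.card_eq_fintype_card]
      rfl
    rw [h2]
    refine Finset.sum_le_sum fun d _ => ?_
    obtain ⟨d, hd⟩ := d
    obtain ⟨x, rfl⟩ := ConjClasses.exists_rep d
    rw [map_mk, ConjClasses.mk_eq_mk_iff_isConj] at hd
    have h3 : Nat.card {h : G // ConjClasses.mk h = ConjClasses.mk x} = Nat.card {h : G // IsConj x h} :=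
      Nat.card_congr (Equiv.subtypeEquivRight fun h => by
        rw [ConjClasses.mk_eq_mk_iff_isConj, isConj_comm])
    have h4 := mul_le_cent π x
    have h5 : orderOf (π x) = orderOf (π g) := by
      obtain ⟨k, hk⟩ := isConj_iff.1 hd
      rw [← hk]
      exact ((MulAut.conj k).orderOf_eq _).symm
    rw [h5, cN_of_isConj π hπ hA hd.symm, ← ho] at h4
    show Nat.card {h : G // ConjClasses.mk h = ConjClasses.mk x} * o ≤ _
    rw [h3, ← card_class_mul x]
    exact Nat.mul_le_mul_left _ h4
  have h2 := card_above π hπ g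
  have h3 : 0 < Nat.card G := Nat.card_pos
  refine Nat.le_of_mul_le_mul_left (c := Nat.card G) ?_ h3
  calc Nat.card G * o = (Nat.card {h : G // IsConj (π g) (π h)} * o) *
        Nat.card (Subgroup.centralizer ({π g} : Set Q)) := by rw [← h2]; ring
    _ ≤ (fib π (ConjClasses.mk (π g)) * Nat.card G) * Nat.card (Subgroup.centralizer ({π g} : Set Q)) :=
        Nat.mul_le_mul_right _ h1
    _ = _ := by ring

end Cfsg.Agent.H504.TwoZ
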