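import Cfsg.Agent.H504.TwoExt
import Cfsg.Prelude.Def_KGroupFacts

/-!
# S4897: non-abelian minimal normal subgroups

* `two_of_pi` : `N ≅ S ^ k`, `k ≥ 2`, `N < G`.
* `two_of_simple` : `N ≅ S`, `G / N` not solvable.
-/

set_option autoImplicit false
set_option linter.unusedSectionVars false

open scoped ComplexConjugate

namespace Cfsg.Agent.H504.TwoZ

open Cfsg Cfsg.Agent.Characters.Core Cfsg.Agent.H504.ZeroTI Cfsg.Agent.H504.Zeros
open Cfsg.Agent.H671.H5

universe u v

variable {G : Type u} [Group G]

/-- two different primes divide the order of a finite non-solvable group -/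
theorem exists_two_primes (C : Type v) [Group C] [Finite C] (h : ¬ Group.IsSolvable C) :
    ∃ p r : ℕ, p.Prime ∧ r.Prime ∧ p ≠ r ∧ p ∣ Nat.card C ∧ r ∣ Nat.card C := by
  classical
  have h1 : Nat.card C ≠ 1 := by
    intro h1
    have : Subsingleton C := (Nat.card_eq_one_iff_unique.1 h1).1
    exact h inferInstance
  obtain ⟨p, hp, hpd⟩ := Nat.exists_prime_and_dvd h1
  by_contra hcon
  push Not at hcon
  have : Fact p.Prime := ⟨hp⟩
  have h2 : IsPGroup p C := by
    rw [IsPGroup.iff_card]
    refine ⟨(Nat.card C).primeFactorsList.length, ?_⟩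
    refine Nat.eq_prime_pow_of_unique_prime_dvd Nat.card_pos.ne' fun {d} hd hdd => ?_
    by_contra hne
    exact hcon p d hp hd (fun h => hne h.symm) hpd hdd
  have := h2.isNilpotent
  exact h inferInstance

/-- an element of order prime different from a given number -/
theorem exists_order_ne (C : Type v) [Group C] [Finite C] (h : ¬ Group.IsSolvable C) (n : ℕ) :
    ∃ c : C, c ≠ 1 ∧ orderOf c ≠ n := by
  obtain ⟨p, r, hp, hr, hne, hpd, hrd⟩ := exists_two_primes C h
  have : Fact p.Prime := ⟨hp⟩
  have : Fact r.Prime := ⟨hr⟩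
  obtain ⟨x, hx⟩ := exists_prime_orderOf_dvd_card' p hpd
  obtain ⟨y, hy⟩ := exists_prime_orderOf_dvd_card' r hrd
  by_cases hpn : p = n
  · refine ⟨y, ?_, ?_⟩
    · rintro rfl
      rw [orderOf_one] at hy
      exact hr.one_lt.ne hy
    · rw [hy, ← hpn]
      exact hne.symm
  · refine ⟨x, ?_, ?_⟩
    · rintro rfl
      rw [orderOf_one] at hx
      exact hp.one_lt.ne hx
    · rw [hx]
      exact hpn

theorem not_solvable_of_simple {S : Type v} [Group S] [IsSimpleGroup S] (hna : ¬ IsMulCommutative S) :
    ¬ Group.IsSolvable S := by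
  intro h
  apply hna
  exact ⟨⟨fun a b => (IsSimpleGroup.comm_iff_isSolvable.2 h) a b⟩⟩

/-- a nonlinear irreducible character has a zero -/
theorem exists_zero {S : Type v} [Group S] [Finite S] {θ : IrrCharacter S}
    (h : charDegree (θ : S → ℂ) ≠ 1) : ∃ x : S, (θ : S → ℂ) x = 0 ∧ x ≠ 1 := by
  have h1 := one_le_zc h
  have h2 : Nonempty {c : ConjClasses S // ∀ g : S, ConjClasses.mk g = c → (θ : S → ℂ) g = 0} := by
    by_contra hcon
    rw [not_nonempty_iff] at hcon
    have : zc θ = 0 := Nat.card_of_isEmpty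
    omega
  obtain ⟨⟨c, hc⟩⟩ := h2
  obtain ⟨g, rfl⟩ := ConjClasses.exists_rep c
  refine ⟨g, hc g rfl, ?_⟩
  rintro rfl
  exact isIrr_apply_one_ne_zero θ.2 (hc 1 rfl)

/-- the number of coordinates of order `n` -/
noncomputable def cnt {ι : Type*} [Fintype ι] {S : Type v} [Group S] (n : ℕ) (f : ι → S) : ℕ :=
  Nat.card {i : ι // orderOf (f i) = n}

theorem cnt_aut {ι : Type} [Fintype ι] [DecidableEq ι] {S : Type v} [Group S] [IsSimpleGroup S]
    (hna : ¬ IsMulCommutative S) (φ : MulAut (ι → S)) (n : ℕ) (f : ι → S) : cnt n (φ f) = cnt n f := by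
  obtain ⟨σ, a, h⟩ := Cfsg.Agent.H671.Tensor.exists_components hna φ
  refine (Nat.card_congr (Equiv.subtypeEquiv σ fun i => ?_)).symm
  rw [h, MulEquiv.orderOf_eq]

/-- **`N ≅ S ^ k`, `k ≥ 2`** -/
theorem two_of_pi [Finite G] (N : Subgroup G) [N.Normal] (hN : N ≠ ⊤) {S : Type v} [Group S] [Finite S]
    [IsSimpleGroup S] (hna : ¬ IsMulCommutative S) {k : ℕ} (hk : 2 ≤ k) (e : N ≃* (Fin k → S))
    {θ : IrrCharacter S} (hθ1 : charDegree (θ : S → ℂ) ≠ 1) (hθ : ExtAut θ) : Two G := by
  classical
  obtain ⟨χ, hχ⟩ := Cfsg.Agent.H671.Tensor.exists_extension N hna e hθ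
  obtain ⟨x, hx0, hx1⟩ := exists_zero hθ1
  obtain ⟨y, hy1, hyx⟩ := exists_order_ne S (not_solvable_of_simple hna) (orderOf x)
  have hres : IsIrrCharacter N (fun n : N => (χ : G → ℂ) n) := by
    have h4 : (fun n : N => (χ : G → ℂ) n) =
        (fun n : Fin k → S => ∏ i, (θ : S → ℂ) (n i)) ∘ (e : N →* (Fin k → S)) := by
      funext n
      exact hχ n
    rw [h4]
    exact isIrr_comp (e : N →* (Fin k → S)) e.surjective (Cfsg.Agent.H713.isIrr_pi θ.2)
  refine two_of_gallagher N hN hres ?_
  let i0 : Fin k := ⟨0, by omega⟩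
  let i1 : Fin k := ⟨1, by omega⟩
  have h01 : i0 ≠ i1 := by
    intro h
    have := congrArg Fin.val h
    simp [i0, i1] at this
  let a : Fin k → S := fun i => if i = i0 then x else 1
  let b : Fin k → S := fun i => if i = i0 then x else if i = i1 then x else 1
  let c : Fin k → S := fun i => if i = i0 then x else if i = i1 then y else 1
  have hox : orderOf x ≠ 1 := fun h => hx1 (orderOf_eq_one_iff.1 h)
  have hoy : orderOf y ≠ 1 := fun h => hy1 (orderOf_eq_one_iff.1 h)
  have cnt_of : ∀ (n : ℕ) (f : Fin k → S) (T : Finset (Fin k)),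
      (∀ i, orderOf (f i) = n ↔ i ∈ T) → cnt n f = T.card := by
    intro n f T h
    unfold cnt
    rw [Nat.card_congr (Equiv.subtypeEquivRight h), Nat.card_eq_fintype_card, Fintype.card_coe]
  have ha : cnt (orderOf x) a = 1 := by
    rw [cnt_of _ _ {i0}]
    · simp
    · intro i
      simp only [a, Finset.mem_singleton]
      split_ifs with h
      · simp [h]
      · rw [orderOf_one]
        exact ⟨fun h' => absurd h'.symm hox, fun h' => absurd h' h⟩
  have hb : cnt (orderOf x) b = 2 := by
    rw [cnt_of _ _ {i0, i1}]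
    · exact Finset.card_pair h01
    · intro i
      simp only [b, Finset.mem_insert, Finset.mem_singleton]
      split_ifs with h h'
      · simp [h]
      · simp [h']
      · rw [orderOf_one]
        exact ⟨fun h'' => absurd h''.symm hox, fun h'' => absurd h'' (by tauto)⟩
  have hc : cnt (orderOf x) c = 1 := by
    rw [cnt_of _ _ {i0}]
    · simp
    · intro i
      simp only [c, Finset.mem_singleton]
      split_ifs with h h'
      · simp [h]
      · exact ⟨fun h'' => absurd h'' hyx, fun h'' => absurd h'' h⟩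
      · rw [orderOf_one]
        exact ⟨fun h' => absurd h'.symm hox, fun h' => absurd h' h⟩
  have ha' : cnt (orderOf y) a = 0 := by
    rw [cnt_of _ _ ∅]
    · simp
    · intro i
      simp only [a, Finset.notMem_empty, iff_false]
      split_ifs with h
      · exact fun h' => hyx h'.symm
      · rw [orderOf_one]
        exact fun h' => hoy h'.symm
  have hc' : cnt (orderOf y) c = 1 := by
    rw [cnt_of _ _ {i1}]
    · simp
    · intro i
      simp only [c, Finset.mem_singleton]
      split_ifs with h h'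
      · rw [h]
        exact ⟨fun h' => absurd h'.symm hyx, fun h' => absurd h' h01⟩
      · simp [h']
      · rw [orderOf_one]
        exact ⟨fun h'' => absurd h''.symm hoy, fun h'' => absurd h'' h'⟩
  have hab : a ≠ b := by
    intro h
    rw [h] at ha
    omega
  have hbc : b ≠ c := by
    intro h
    rw [h] at hb
    omega
  have hac : a ≠ c := by
    intro h
    rw [h] at ha'
    omega
  have hNC : AutNC ({a, b, c} : Finset (Fin k → S)) := by
    intro g hg h hh φ hφ
    have e1 : cnt (orderOf x) g = cnt (orderOf x) h := by rw [← hφ, cnt_aut hna]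
    have e2 : cnt (orderOf y) g = cnt (orderOf y) h := by rw [← hφ, cnt_aut hna]
    simp only [Finset.mem_insert, Finset.mem_singleton] at hg hh
    rcases hg with rfl | rfl | rfl <;> rcases hh with rfl | rfl | rfl <;> first | rfl | omega
  obtain ⟨h1, h2⟩ := nonConj_image N e hNC
  have hcard : ({a, b, c} : Finset (Fin k → S)).card = 3 := by
    rw [Finset.card_eq_three]
    exact ⟨a, b, c, hab, hac, hbc, rfl⟩
  refine le_trans (by rw [h2, hcard]) (le_zc h1 fun g hg => ?_)
  obtain ⟨f, hf, rfl⟩ := Finset.mem_image.1 hg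
  rw [hχ, MulEquiv.apply_symm_apply]
  apply Finset.prod_eq_zero (Finset.mem_univ i0)
  have : f i0 = x := by
    simp only [Finset.mem_insert, Finset.mem_singleton] at hf
    rcases hf with rfl | rfl | rfl <;> simp [a, b, c]
  rw [this]
  exact hx0

/-- the centralizer of a simple normal subgroup with non-solvable quotient is not solvable -/
theorem not_solvable_centralizer [Finite G] (N : Subgroup G) [N.Normal] {S : Type v} [Group S] [Finite S]
    [IsSimpleGroup S] (hOut : Group.IsSolvable (Cfsg.Out S)) (e : N ≃* S) (hQ : ¬ Group.IsSolvable (G ⧸ N)) :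
    ¬ Group.IsSolvable (Subgroup.centralizer (N : Set G)) := by
  intro hC
  apply hQ
  set C := Subgroup.centralizer (N : Set G) with hCdef
  have hCn : C.Normal := inferInstance
  -- `f : G → Out S` has kernel `N C`
  let c : G →* MulAut S := (MulAut.congr e).toMonoidHom.comp (MulAut.conjNormal (H := N))
  let f : G →* Cfsg.Out S := (QuotientGroup.mk' (Inn S)).comp c
  have hfN : ∀ n ∈ N, f n = 1 := by
    intro n hn
    have hc : c n = MulAut.conj (e ⟨n, hn⟩) := by
      ext x
      show e (MulAut.conjNormal (n : G) (e.symm x)) = _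
      have h1 : MulAut.conjNormal (n : G) (e.symm x) = ⟨n, hn⟩ * e.symm x * ⟨n, hn⟩⁻¹ := by
        apply Subtype.ext
        rw [MulAut.conjNormal_apply]
        rfl
      rw [h1, map_mul, map_mul, map_inv, MulEquiv.apply_symm_apply]
      rfl
    show QuotientGroup.mk' (Inn S) (c n) = 1
    rw [hc]
    exact (QuotientGroup.eq_one_iff _).2 ⟨_, rfl⟩
  have hf : ∀ g, f g = 1 → g ∈ N ⊔ C := by
    intro g hg
    have h1 : c g ∈ Inn S := (QuotientGroup.eq_one_iff _).1 hg
    obtain ⟨s, hs⟩ := h1
    have h2 : ((e.symm s : N) : G)⁻¹ * g ∈ C := by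
      rw [hCdef, Subgroup.mem_centralizer_iff]
      intro n hn
      have h3 : c g (e ⟨n, hn⟩) = MulAut.conj s (e ⟨n, hn⟩) := by rw [← hs]
      have h4 : e (MulAut.conjNormal g ⟨n, hn⟩) = s * e ⟨n, hn⟩ * s⁻¹ := by
        have h5 : c g (e ⟨n, hn⟩) = e (MulAut.conjNormal g (e.symm (e ⟨n, hn⟩))) := rfl
        rw [MulEquiv.symm_apply_apply] at h5
        rw [← h5, h3]
        rfl
      have h5 : MulAut.conjNormal g ⟨n, hn⟩ = e.symm s * ⟨n, hn⟩ * (e.symm s)⁻¹ := by
        apply e.injective
        rw [h4, map_mul, map_mul, map_inv, MulEquiv.apply_symm_apply]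
      have h6 := congrArg Subtype.val h5
      rw [MulAut.conjNormal_apply] at h6
      have h7 : g * n * g⁻¹ = (e.symm s : N) * n * ((e.symm s : N) : G)⁻¹ := h6
      calc n * (((e.symm s : N) : G)⁻¹ * g) = ((e.symm s : N) : G)⁻¹ * (((e.symm s : N) : G) * n * ((e.symm s : N) : G)⁻¹) * g := by group
        _ = ((e.symm s : N) : G)⁻¹ * (g * n * g⁻¹) * g := by rw [h7]
        _ = ((e.symm s : N) : G)⁻¹ * g * n := by group
    have h3 : g = ((e.symm s : N) : G) * (((e.symm s : N) : G)⁻¹ * g) := by group
    rw [h3]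
    exact (N ⊔ C).mul_mem (Subgroup.mem_sup_left (e.symm s).2) (Subgroup.mem_sup_right h2)
  let fb : G ⧸ N →* Cfsg.Out S := QuotientGroup.lift N f hfN
  have hker : Group.IsSolvable fb.ker := by
    -- `C → ker fb` is surjective
    let g : C →* G ⧸ N := (QuotientGroup.mk' N).comp C.subtype
    have hsub : fb.ker ≤ g.range := by
      intro q hq
      obtain ⟨x, rfl⟩ := QuotientGroup.mk_surjective q
      have h1 : f x = 1 := hq
      have h2 := hf x h1
      rw [Subgroup.mem_sup_of_normal_left] at h2
      obtain ⟨n, hn, c', hc', rfl⟩ := h2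
      refine ⟨⟨c', hc'⟩, ?_⟩
      show (QuotientGroup.mk' N) c' = (QuotientGroup.mk' N) (n * c')
      rw [map_mul, show (QuotientGroup.mk' N) n = 1 from (QuotientGroup.eq_one_iff n).2 hn, one_mul]
    have hr : Group.IsSolvable g.range := Group.isSolvable_of_surjective (f := g.rangeRestrict) g.rangeRestrict_surjective
    exact Group.isSolvable_of_isSolvable_injective (Subgroup.inclusion_injective hsub)
  exact Group.isSolvable_of_ker_le_range fb.ker.subtype fb (by simp)

/-- **`N ≅ S` simple, `G / N` not solvable** -/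
theorem two_of_simple [Finite G] (N : Subgroup G) [N.Normal] (hQ : ¬ Group.IsSolvable (G ⧸ N)) {S : Type v}
    [Group S] [Finite S] [IsSimpleGroup S] (hna : ¬ IsMulCommutative S)
    (hOut : Group.IsSolvable (Cfsg.Out S)) (e : N ≃* S) {θ : IrrCharacter S} (hθ1 : charDegree (θ : S → ℂ) ≠ 1) (hθ : ExtAut θ) : Two G := by
  classical
  have hN : N ≠ ⊤ := by
    rintro rfl
    apply hQ
    have : Subsingleton (G ⧸ (⊤ : Subgroup G)) := QuotientGroup.subsingleton_quotient_top
    infer_instance
  obtain ⟨χ, hχ, hχc⟩ := exists_ext N e hθ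
  refine two_of_gallagher N hN (isIrr_restrict_of_ext N e hχ) ?_
  obtain ⟨x, hx0, -⟩ := exists_zero hθ1
  have hC := not_solvable_centralizer N hOut e hQ
  obtain ⟨c, hc1, hcn⟩ := exists_order_ne _ hC 1
  obtain ⟨d, hd1, hdc⟩ := exists_order_ne _ hC (orderOf c)
  -- the order of the image in `G / N`
  have hint : ∀ z : Subgroup.centralizer (N : Set G), (z : G) ∈ N → z = 1 := by
    intro z hz
    have h1 : ∀ s : S, s * e ⟨z, hz⟩ = e ⟨z, hz⟩ * s := by
      intro s
      have h2 := Subgroup.mem_centralizer_iff.1 z.2 _ (e.symm s).2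
      apply e.symm.injective
      rw [map_mul, map_mul, MulEquiv.symm_apply_apply]
      exact Subtype.ext h2
    have h2 : e ⟨z, hz⟩ ∈ Subgroup.center S := Subgroup.mem_center_iff.2 h1
    have h3 : Subgroup.center S = ⊥ := by
      rcases (inferInstance : (Subgroup.center S).Normal).eq_bot_or_eq_top with h | h
      · exact h
      · exfalso
        apply hna
        refine ⟨⟨fun a b => ?_⟩⟩
        have : b ∈ Subgroup.center S := h ▸ Subgroup.mem_top b
        exact Subgroup.mem_center_iff.1 this a
    rw [h3, Subgroup.mem_bot, map_eq_one_iff e e.injective] at h2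
    have h4 : (⟨z, hz⟩ : N) = 1 := h2
    have h5 : (z : G) = 1 := congrArg Subtype.val h4
    exact Subtype.ext h5
  have hord : ∀ z : Subgroup.centralizer (N : Set G),
      orderOf ((QuotientGroup.mk' N) (((e.symm x : N) : G) * z)) = orderOf z := by
    intro z
    rw [map_mul, show (QuotientGroup.mk' N) ((e.symm x : N) : G) = 1 from
      (QuotientGroup.eq_one_iff _).2 (e.symm x).2, one_mul]
    have hinj : Function.Injective ((QuotientGroup.mk' N).comp (Subgroup.centralizer (N : Set G)).subtype) := by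
      rw [injective_iff_map_eq_one]
      intro w hw
      exact hint w ((QuotientGroup.eq_one_iff _).1 hw)
    exact orderOf_injective _ hinj z
  have hnc : NonConj ({((e.symm x : N) : G) * (1 : Subgroup.centralizer (N : Set G)),
      ((e.symm x : N) : G) * c, ((e.symm x : N) : G) * d} : Finset G) := by
    intro g hg h hh hcj
    have h1 : orderOf ((QuotientGroup.mk' N) g) = orderOf ((QuotientGroup.mk' N) h) := by
      obtain ⟨k, hk⟩ := isConj_iff.1 (isConj_map (QuotientGroup.mk' N) hcj)
      rw [← hk]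
      exact (MulAut.conj k).orderOf_eq _ |>.symm
    simp only [Finset.mem_insert, Finset.mem_singleton] at hg hh
    have hc1' : orderOf c ≠ 1 := hcn
    have hd1' : orderOf d ≠ 1 := fun h => hd1 (orderOf_eq_one_iff.1 h)
    rcases hg with rfl | rfl | rfl <;> rcases hh with rfl | rfl | rfl <;>
      simp only [hord, orderOf_one] at h1 <;> first | rfl | omega
  have hcard : ({((e.symm x : N) : G) * (1 : Subgroup.centralizer (N : Set G)),
      ((e.symm x : N) : G) * c, ((e.symm x : N) : G) * d} : Finset G).card = 3 := by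
    rw [Finset.card_eq_three]
    refine ⟨_, _, _, ?_, ?_, ?_, rfl⟩
    · intro h
      have h1 := hord 1
      rw [h, hord, orderOf_one] at h1
      exact hcn h1
    · intro h
      have h1 := hord 1
      rw [h, hord, orderOf_one] at h1
      exact hd1 (orderOf_eq_one_iff.1 h1)
    · intro h
      have h1 := hord c
      rw [h, hord] at h1
      exact hdc h1
  refine le_trans (by rw [hcard]) (le_zc hnc fun g hg => ?_)
  have hz : (χ : G → ℂ) ((e.symm x : N) : G) = 0 := by
    rw [hχ, MulEquiv.apply_symm_apply, hx0]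
  simp only [Finset.mem_insert, Finset.mem_singleton] at hg
  rcases hg with rfl | rfl | rfl
  · rw [OneMemClass.coe_one, mul_one]
    exact hz
  · rw [hχc _ _ c.2]
    exact hz
  · rw [hχc _ _ d.2]
    exact hz

end Cfsg.Agent.H504.TwoZ
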