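import Cfsg.Agent.H504.TwoQuot
import Cfsg.Agent.H377.TwoConv.Basic

/-!
# S4897: abelian normal subgroups with quotient `A₅`
-/

set_option autoImplicit false
set_option linter.unusedSectionVars false

namespace Cfsg.Agent.H504.TwoZ

open Cfsg Cfsg.Agent.Characters.Core Cfsg.Agent.H504.ZeroTI Cfsg.Agent.H504.Zeros

universe u v

/-- four numbers, none divisible by three, whose squares add up to `60` -/
theorem exists_three {ι : Type*} (S : Finset ι) (d : ι → ℕ) (hS : S.card = 4)
    (h : ∑ i ∈ S, d i ^ 2 = 60) : ∃ i ∈ S, 3 ∣ d i := by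
  by_contra hcon
  push Not at hcon
  have h1 : ∀ i ∈ S, d i ^ 2 ≡ 1 [MOD 3] := by
    intro i hi
    have h2 := hcon i hi
    have h3 : d i % 3 = 1 ∨ d i % 3 = 2 := by omega
    rcases h3 with h3 | h3 <;> simp [Nat.ModEq, Nat.pow_mod, h3]
  have h2 : ∑ i ∈ S, d i ^ 2 ≡ ∑ i ∈ S, 1 [MOD 3] := by
    exact Nat.ModEq.sum fun i hi => h1 i hi
  rw [h, Finset.sum_const, hS] at h2
  simp [Nat.ModEq] at h2

/-- five positive numbers, none divisible by five, whose squares add up to `60` -/
theorem exists_five {ι : Type*} (S : Finset ι) (d : ι → ℕ) (hS : S.card = 5)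
    (h : ∑ i ∈ S, d i ^ 2 = 60) : ∃ i ∈ S, 5 ∣ d i := by
  classical
  by_contra hcon
  push Not at hcon
  have h7 : ∀ i ∈ S, d i ∈ ({1, 2, 3, 4, 6, 7} : Finset ℕ) := by
    intro i hi
    have h2 : d i ^ 2 ≤ 60 := by
      rw [← h]
      exact Finset.single_le_sum (f := fun i => d i ^ 2) (fun _ _ => Nat.zero_le _) hi
    have h3 : d i ≤ 7 := by
      by_contra h4
      have : 8 ≤ d i := by omega
      nlinarith
    have h4 := hcon i hi
    have h5 : d i ≠ 0 := by
      intro h0
      rw [h0] at h4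
      exact h4 (dvd_zero 5)
    simp only [Finset.mem_insert, Finset.mem_singleton]
    interval_cases (d i) <;> simp_all
  have h1 := Finset.card_eq_sum_card_fiberwise h7
  have h2 := Finset.sum_fiberwise_of_maps_to h7 (fun i => d i ^ 2)
  have h3 : ∀ v : ℕ, ∑ i ∈ S with d i = v, d i ^ 2 = (S.filter (fun i => d i = v)).card * v ^ 2 := by
    intro v
    rw [← smul_eq_mul, ← Finset.sum_const]
    exact Finset.sum_congr rfl fun i hi => by rw [(Finset.mem_filter.1 hi).2]
  rw [Finset.sum_congr rfl fun v _ => h3 v, h] at h2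
  rw [hS] at h1
  rw [Finset.sum_insert (by decide), Finset.sum_insert (by decide), Finset.sum_insert (by decide),
    Finset.sum_insert (by decide), Finset.sum_insert (by decide), Finset.sum_singleton] at h1 h2
  generalize (S.filter (fun i => d i = 1)).card = n1 at h1 h2
  generalize (S.filter (fun i => d i = 2)).card = n2 at h1 h2
  generalize (S.filter (fun i => d i = 3)).card = n3 at h1 h2
  generalize (S.filter (fun i => d i = 4)).card = n4 at h1 h2
  generalize (S.filter (fun i => d i = 6)).card = n6 at h1 h2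
  generalize (S.filter (fun i => d i = 7)).card = n7 at h1 h2
  have h6 : n6 ≤ 1 := by omega
  have h7' : n7 ≤ 1 := by omega
  have h4 : n4 ≤ 3 := by omega
  have h3' : n3 ≤ 5 := by omega
  interval_cases n6 <;> interval_cases n7 <;> interval_cases n4 <;> interval_cases n3 <;> omega

variable {G : Type u} [Group G] [Finite G] {Q : Type v} [Group Q] (π : G →* Q)

/-- at most `|N|` classes above a class -/
theorem fib_le_card (hπ : Function.Surjective π) (c : ConjClasses Q) : fib π c ≤ Nat.card π.ker := by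
  obtain ⟨q, rfl⟩ := ConjClasses.exists_rep c
  rw [← card_fiber π hπ q]
  unfold fib
  refine Nat.card_le_card_of_surjective (fun h : {h : G // π h = q} =>
    (⟨ConjClasses.mk h.1, by rw [map_mk, h.2]⟩ : {d : ConjClasses G // ConjClasses.map π d = ConjClasses.mk q})) ?_
  rintro ⟨d, hd⟩
  obtain ⟨x, rfl⟩ := ConjClasses.exists_rep d
  rw [map_mk, ConjClasses.mk_eq_mk_iff_isConj] at hd
  obtain ⟨c, hc⟩ := isConj_iff.1 hd
  obtain ⟨k, rfl⟩ := hπ c
  refine ⟨⟨k * x * k⁻¹, by rw [map_mul, map_mul, map_inv, hc]⟩, ?_⟩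
  apply Subtype.ext
  show ConjClasses.mk (k * x * k⁻¹) = ConjClasses.mk x
  rw [ConjClasses.mk_eq_mk_iff_isConj]
  exact (isConj_iff.2 ⟨k, rfl⟩).symm

/-- the sum of the squares of the degrees of the characters that do not come from `Q` -/
theorem sum_faith [Fintype (IrrCharacter G)] (hπ : Function.Surjective π) :
    ∑ χ ∈ (open Classical in Finset.univ.filter fun χ : IrrCharacter G => Faith π χ),
      charDegree (χ : G → ℂ) ^ 2 + Nat.card Q = Nat.card G := by
  classical
  have hQ : Finite Q := Finite.of_surjective π hπ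
  have := finite_irr (G := Q)
  have := Fintype.ofFinite (IrrCharacter Q)
  have h1 := Cfsg.Agent.H686.CharKit.sum_deg_sq (G := G)
  have h2 := Cfsg.Agent.H686.CharKit.sum_deg_sq (G := Q)
  rw [← h1, ← h2, ← Finset.sum_filter_add_sum_filter_not Finset.univ (fun χ : IrrCharacter G => Faith π χ)]
  congr 1
  refine Finset.sum_nbij (fun ψ => inf π hπ ψ) ?_ ?_ ?_ ?_
  · intro ψ _
    refine Finset.mem_filter.2 ⟨Finset.mem_univ _, fun h => h ⟨ψ, rfl⟩⟩
  · intro a _ b _ h
    exact inf_injective π hπ h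
  · intro χ hχ
    obtain ⟨ψ, hψ⟩ := not_not.1 (Finset.mem_filter.1 hχ).2
    exact ⟨ψ, Finset.mem_coe.2 (Finset.mem_univ _), Subtype.ext hψ.symm⟩
  · intro ψ _
    congr 1
    rw [Cfsg.Agent.Blocks.Basic.charDegree_def, Cfsg.Agent.Blocks.Basic.charDegree_def]
    show _ = ⌊(((ψ : Q → ℂ) (π 1))).re⌋₊
    rw [map_one]

theorem mk_ne_of_order {x y : Q} (h : orderOf x ≠ orderOf y) : ConjClasses.mk x ≠ ConjClasses.mk y := by
  intro h1
  obtain ⟨k, hk⟩ := isConj_iff.1 (ConjClasses.mk_eq_mk_iff_isConj.1 h1)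
  apply h
  rw [← hk]
  exact ((MulAut.conj k).orderOf_eq _).symm

theorem aux_five {n j : ℕ} (h2 : 2 ≤ n) (h4 : n ≤ 4) (hj : j ≤ n) (hne : j ≠ n)
    (h : 2 ^ n ≡ 2 ^ j [MOD 5]) : j = 0 := by
  unfold Nat.ModEq at h
  interval_cases n <;> interval_cases j <;> first | rfl | (exact absurd rfl hne) | (norm_num at h)

theorem aux_mod {r : ℕ} (h : r < 4) (h1 : 2 ^ r ≡ 1 [MOD 5]) (h2 : 2 ^ r ≡ 2 [MOD 3]) : False := by
  revert h1 h2
  interval_cases r <;> decide

/-- **quotient `A₅`** -/
theorem two_of_a5 (hπ : Function.Surjective π) (hA : AbK π) (hne : π.ker ≠ ⊥) {p n : ℕ} (hp : p.Prime)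
    (hcard : Nat.card π.ker = p ^ n) (hexp : ∀ m ∈ π.ker, m ^ p = 1) [IsSimpleGroup Q]
    (hQ : Nat.card Q = 60) (hk : Nat.card (ConjClasses Q) = 5) {ψ₁ ψ₂ ψ₃ ψ₄ : IrrCharacter Q}
    (h12 : ψ₁ ≠ ψ₂) (h34 : ψ₃ ≠ ψ₄) {t f f' a b : Q} (ht : orderOf t = 3)
    (htc : Nat.card (Subgroup.centralizer ({t} : Set Q)) = 3) (hf : orderOf f = 5)
    (hfc : Nat.card (Subgroup.centralizer ({f} : Set Q)) = 5) (hf' : orderOf f' = 5)
    (hfc' : Nat.card (Subgroup.centralizer ({f'} : Set Q)) = 5)
    (hff : ConjClasses.mk f ≠ ConjClasses.mk f') (hz1 : ZeroOn ψ₁ (ConjClasses.mk t))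
    (hz2 : ZeroOn ψ₂ (ConjClasses.mk t)) (hz4 : ZeroOn ψ₄ (ConjClasses.mk f))
    (hz4' : ZeroOn ψ₄ (ConjClasses.mk f')) (ha : a * a = 1) (hb : b * b = 1)
    (hinv : ∀ q : Q, q = a ∨ q = b ∨ q = a * b → ZeroOn ψ₃ (ConjClasses.mk q) ∧ orderOf q = 2 ∧
      Nat.card (Subgroup.centralizer ({q} : Set Q)) = 4) : Two G := by
  classical
  by_contra hT
  have := finite_irr (G := G)
  have := Fintype.ofFinite (IrrCharacter G)
  have hQf : Finite Q := Finite.of_surjective π hπ
  have := Fintype.ofFinite (ConjClasses Q)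
  have hn : n ≠ 0 := by
    rintro rfl
    rw [pow_zero, Subgroup.card_eq_one] at hcard
    exact hne hcard
  obtain ⟨g3, hg3⟩ := hπ t
  obtain ⟨g5, hg5⟩ := hπ f
  obtain ⟨g5', hg5'⟩ := hπ f'
  obtain ⟨A, hA'⟩ := hπ a
  obtain ⟨B, hB'⟩ := hπ b
  have m1t : ConjClasses.mk (1 : Q) ≠ ConjClasses.mk t := mk_ne_of_order (by rw [orderOf_one, ht]; norm_num)
  have m1f : ConjClasses.mk (1 : Q) ≠ ConjClasses.mk f := mk_ne_of_order (by rw [orderOf_one, hf]; norm_num)
  have m1f' : ConjClasses.mk (1 : Q) ≠ ConjClasses.mk f' := mk_ne_of_order (by rw [orderOf_one, hf']; norm_num)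
  have mtf : ConjClasses.mk t ≠ ConjClasses.mk f := mk_ne_of_order (by rw [ht, hf]; norm_num)
  have mtf' : ConjClasses.mk t ≠ ConjClasses.mk f' := mk_ne_of_order (by rw [ht, hf']; norm_num)
  have m1q : ∀ q : Q, orderOf q = 2 → ConjClasses.mk (1 : Q) ≠ ConjClasses.mk q := fun q hq =>
    mk_ne_of_order (by rw [orderOf_one, hq]; norm_num)
  have mqt : ∀ q : Q, orderOf q = 2 → ConjClasses.mk q ≠ ConjClasses.mk t := fun q hq =>
    mk_ne_of_order (by rw [ht, hq]; norm_num)
  have mqf : ∀ q : Q, orderOf q = 2 → ConjClasses.mk q ≠ ConjClasses.mk f := fun q hq =>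
    mk_ne_of_order (by rw [hf, hq]; norm_num)
  have mqf' : ∀ q : Q, orderOf q = 2 → ConjClasses.mk q ≠ ConjClasses.mk f' := fun q hq =>
    mk_ne_of_order (by rw [hf', hq]; norm_num)
  have F1 : 2 ≤ fib π (ConjClasses.mk 1) := two_le_fib_one π hne
  -- elements of order three
  have F3 : fib π (ConjClasses.mk t) ≤ 2 := by
    by_contra h
    have h1 := sum_fib_le_zc π hπ ψ₁ {ConjClasses.mk t} fun q hq => hz1 q (Finset.mem_singleton.1 hq)
    have h2 := sum_fib_le_zc π hπ ψ₂ {ConjClasses.mk t} fun q hq => hz2 q (Finset.mem_singleton.1 hq)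
    rw [Finset.sum_singleton] at h1 h2
    exact hT (two_of_zc (inf_ne π hπ h12) (by omega) (by omega))
  have c3 : cN π g3 ≤ fib π (ConjClasses.mk t) := by
    have h1 := card_mul_le_fib π hπ hA g3
    rw [hg3, ht, htc] at h1
    omega
  have m3 : Nat.card π.ker ≡ cN π g3 [MOD 3] :=
    cN_modEq π hπ hA (r := 3) (k := 1) Nat.prime_three g3 (by rw [hg3, ht]; norm_num)
  have m5 : Nat.card π.ker ≡ cN π g5 [MOD 5] :=
    cN_modEq π hπ hA (r := 5) (k := 1) Nat.prime_five g5 (by rw [hg5, hf]; norm_num)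
  have m5' : Nat.card π.ker ≡ cN π g5' [MOD 5] :=
    cN_modEq π hπ hA (r := 5) (k := 1) Nat.prime_five g5' (by rw [hg5', hf']; norm_num)
  have c3pos := cN_pos π g3
  have c5 : cN π g5 ≤ fib π (ConjClasses.mk f) := by
    have h1 := card_mul_le_fib π hπ hA g5
    rw [hg5, hf, hfc] at h1
    omega
  have c5' : cN π g5' ≤ fib π (ConjClasses.mk f') := by
    have h1 := card_mul_le_fib π hπ hA g5'
    rw [hg5', hf', hfc'] at h1
    omega
  have p3 : p ≠ 3 := by
    rintro rfl
    have h1 : 3 ∣ cN π g3 := by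
      rw [hcard] at m3
      exact (m3.dvd_iff (dvd_refl 3)).1 (dvd_pow_self 3 hn)
    have := Nat.le_of_dvd c3pos h1
    omega
  -- the final contradiction for odd `p`
  have odd_final : p ≠ 2 → (∀ q : Q, q = a ∨ q = b ∨ q = a * b → ∀ g : G, π g = q → cN π g ≤ 4) → False := by
    intro hp2 hle
    have key : ∀ q : Q, q = a ∨ q = b ∨ q = a * b → ∀ g : G, π g = q → cN π g = 1 := by
      intro q hq g hg
      have h1 := cN_dvd_ker π g
      rw [hcard] at h1
      obtain ⟨j, -, hj⟩ := (Nat.dvd_prime_pow hp).1 h1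
      have h2 := hle q hq g hg
      have h3 : 5 ≤ p := by
        have h4 := hp.two_le
        by_contra h5
        have : p = 2 ∨ p = 3 ∨ p = 4 := by omega
        rcases this with h | h | h
        · exact hp2 h
        · exact p3 h
        · rw [h] at hp
          exact absurd hp (by norm_num)
      rcases Nat.eq_zero_or_pos j with h4 | h4
      · rw [hj, h4, pow_zero]
      · have h5 : p ^ 1 ≤ p ^ j := Nat.pow_le_pow_right hp.pos h4
        rw [pow_one, ← hj] at h5
        omega
    exact no_four π hA hne (by rw [hA']; exact ha) (by rw [hB']; exact hb) (key _ (Or.inl rfl) A hA')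
      (key _ (Or.inr (Or.inl rfl)) B hB') (key _ (Or.inr (Or.inr rfl)) (A * B) (by rw [map_mul, hA', hB']))
  have hker2 : p = 2 → ∀ m ∈ π.ker, m * m = 1 := by
    intro h2 m hm
    have h1 := hexp m hm
    rwa [h2, pow_two] at h1
  by_cases hI : fib π (ConjClasses.mk f) + fib π (ConjClasses.mk f') ≤ 2
  · -- Case I
    have f5pos := fib_pos π hπ (ConjClasses.mk f)
    have f5pos' := fib_pos π hπ (ConjClasses.mk f')
    have f5 : fib π (ConjClasses.mk f) = 1 := by omega
    have f5' : fib π (ConjClasses.mk f') = 1 := by omega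
    have d5 : cN π g5 = 1 := by
      have := cN_pos π g5
      omega
    rw [d5] at m5
    have f3 : fib π (ConjClasses.mk t) = 1 := by
      have h1 : cN π g3 = 1 := by
        by_contra h1
        have h2 : cN π g3 = 2 := by omega
        have h3 : 2 ∣ p ^ n := by
          rw [← hcard, ← h2]
          exact cN_dvd_ker π g3
        have h4 : p = 2 := ((Nat.prime_dvd_prime_iff_eq Nat.prime_two hp).1 (Nat.prime_two.dvd_of_dvd_pow h3)).symm
        rw [h2, hcard, h4] at m3
        rw [hcard, h4] at m5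
        -- `2 ^ n ≡ 1 mod 5` implies `4 ∣ n`, then `2 ^ n ≡ 1 mod 3`
        obtain ⟨k, hk'⟩ : ∃ k, n = 4 * k + n % 4 := ⟨n / 4, by omega⟩
        have h5 : n % 4 < 4 := Nat.mod_lt _ (by norm_num)
        rw [hk', pow_add, pow_mul] at m3 m5
        have h6 : (2 ^ 4) ^ k ≡ 1 [MOD 5] := by
          have : 2 ^ 4 ≡ 1 [MOD 5] := by decide
          simpa using this.pow k
        have h7 : (2 ^ 4) ^ k ≡ 1 [MOD 3] := by
          have : 2 ^ 4 ≡ 1 [MOD 3] := by decide
          simpa using this.pow k
        have h8 : 2 ^ (n % 4) ≡ 1 [MOD 5] := by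
          have := (h6.mul_right (2 ^ (n % 4))).symm.trans m5
          simpa using this
        have h9 : 2 ^ (n % 4) ≡ 2 [MOD 3] := by
          have := (h7.mul_right (2 ^ (n % 4))).symm.trans m3
          simpa using this
        exact aux_mod h5 h8 h9
      have h2 := one_of_cN π hπ h1
      have h3 := (fib_eq_one_iff π hπ g3).2 h2
      rwa [hg3] at h3
    have hz : ∀ χ : IrrCharacter G, Faith π χ → 3 ≤ zc χ := by
      intro χ hχ
      refine le_trans ?_ (faith_zc π hπ hχ {ConjClasses.mk t, ConjClasses.mk f, ConjClasses.mk f'} ?_)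
      · rw [Finset.card_eq_three.2 ⟨_, _, _, mtf, mtf', hff, rfl⟩]
      · intro y hy
        simp only [Finset.mem_insert, Finset.mem_singleton] at hy
        rcases hy with rfl | rfl | rfl <;> assumption
    have h1 : Nat.card {χ : IrrCharacter G // Faith π χ} ≤ 1 := by
      by_contra h
      have h2 : 1 < Nat.card {χ : IrrCharacter G // Faith π χ} := by omega
      rw [Finite.one_lt_card_iff_nontrivial] at h2
      obtain ⟨x, y, hxy⟩ := h2
      exact hT (two_of_zc (fun h => hxy (Subtype.ext h)) (hz _ x.2) (hz _ y.2))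
    have h2 := card_faith π hπ
    rw [hk] at h2
    have f2 : ∀ q : Q, orderOf q = 2 → fib π (ConjClasses.mk q) = 1 := by
      intro q hq
      have h3 := card_classes_ge π hπ {ConjClasses.mk 1, ConjClasses.mk q}
      rw [Finset.sum_pair (m1q q hq), Finset.card_pair (m1q q hq), hk] at h3
      have h4 := fib_pos π hπ (ConjClasses.mk q)
      omega
    have c2 : ∀ q : Q, q = a ∨ q = b ∨ q = a * b → ∀ g : G, π g = q → cN π g ≤ 2 := by
      intro q hq g hg
      obtain ⟨-, h3, h4⟩ := hinv q hq
      have h5 := card_mul_le_fib π hπ hA g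
      rw [hg, h3, h4, f2 q h3] at h5
      omega
    by_cases hp2 : p = 2
    · have h3 := card_ker_le_sq π hA (hker2 hp2) (g := A) (by rw [hA']; exact ha)
      have h4 := c2 a (Or.inl rfl) A hA'
      have h5 : Nat.card π.ker ≤ 4 := h3.trans (by nlinarith)
      have h6 : 2 ≤ Nat.card π.ker := by
        rw [hcard, hp2]
        calc 2 = 2 ^ 1 := by norm_num
          _ ≤ 2 ^ n := Nat.pow_le_pow_right (by norm_num) (by omega)
      simp only [Nat.ModEq] at m5
      interval_cases (Nat.card π.ker) <;> omega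
    · exact odd_final hp2 fun q hq g hg => (c2 q hq g hg).trans (by norm_num)
  · -- Case II
    have z4 : 3 ≤ zc (inf π hπ ψ₄) := by
      have h1 := sum_fib_le_zc π hπ ψ₄ {ConjClasses.mk f, ConjClasses.mk f'} fun q hq => by
        rcases Finset.mem_insert.1 hq with h | h
        · exact hz4 q h
        · exact hz4' q (Finset.mem_singleton.1 h)
      rw [Finset.sum_pair hff] at h1
      omega
    have f2 : ∀ q : Q, q = a ∨ q = b ∨ q = a * b → fib π (ConjClasses.mk q) ≤ 2 := by
      intro q hq
      have h1 := sum_fib_le_zc π hπ ψ₃ {ConjClasses.mk q} fun x hx => (hinv q hq).1 x (Finset.mem_singleton.1 hx)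
      rw [Finset.sum_singleton] at h1
      exact h1.trans (zc_le_of hT (inf_ne π hπ h34.symm) z4)
    have c2 : ∀ q : Q, q = a ∨ q = b ∨ q = a * b → ∀ g : G, π g = q → cN π g ≤ 4 := by
      intro q hq g hg
      obtain ⟨-, h3, h4⟩ := hinv q hq
      have h5 := card_mul_le_fib π hπ hA g
      rw [hg, h3, h4] at h5
      have := f2 q hq
      omega
    by_cases hp2 : p = 2
    swap
    · exact odd_final hp2 c2
    subst hp2
    have h3 := card_ker_le_sq π hA (hker2 rfl) (g := A) (by rw [hA']; exact ha)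
    have h4 := c2 a (Or.inl rfl) A hA'
    have h5 : 2 ^ n ≤ 2 ^ 4 := by
      rw [← hcard]
      exact h3.trans (by nlinarith)
    have hn4 : n ≤ 4 := (Nat.pow_le_pow_iff_right (by norm_num)).1 h5
    -- no element outside the kernel centralizes the kernel, unless `n = 1`
    have full : ∀ g : G, π g ≠ 1 → cN π g = Nat.card π.ker → n = 1 := by
      intro g hg hc
      have h6 := cN_eq_card_of_simple π hπ hA hg hc g3
      rw [hcard] at h6
      have h7 : 2 ^ n ≤ 2 ^ 1 := by
        rw [← h6]
        omega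
      have := (Nat.pow_le_pow_iff_right (by norm_num)).1 h7
      omega
    have hf1 : π g5 ≠ 1 := by
      intro h
      rw [hg5] at h
      rw [h, orderOf_one] at hf
      omega
    have hf1' : π g5' ≠ 1 := by
      intro h
      rw [hg5'] at h
      rw [h, orderOf_one] at hf'
      omega
    have div5 : ∃ j ≤ n, cN π g5 = 2 ^ j := by
      have h1 := cN_dvd_ker π g5
      rw [hcard] at h1
      exact (Nat.dvd_prime_pow Nat.prime_two).1 h1
    have div5' : ∃ j ≤ n, cN π g5' = 2 ^ j := by
      have h1 := cN_dvd_ker π g5'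
      rw [hcard] at h1
      exact (Nat.dvd_prime_pow Nat.prime_two).1 h1
    obtain ⟨j, hj, hj'⟩ := div5
    obtain ⟨i, hi, hi'⟩ := div5'
    have hn1 : n = 1 := by
      by_contra hn1
      have hnj : j ≠ n := fun h => hn1 (full g5 hf1 (by rw [hj', h, hcard]))
      have hni : i ≠ n := fun h => hn1 (full g5' hf1' (by rw [hi', h, hcard]))
      rw [hcard, hj'] at m5
      rw [hcard, hi'] at m5'
      have h6 : j = 0 ∧ i = 0 := ⟨aux_five (by omega) hn4 hj hnj m5, aux_five (by omega) hn4 hi hni m5'⟩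
      have h7 : fib π (ConjClasses.mk f) = 1 := by
        have h8 := (fib_eq_one_iff π hπ g5).2 (one_of_cN π hπ (by rw [hj', h6.1, pow_zero]))
        rwa [hg5] at h8
      have h8 : fib π (ConjClasses.mk f') = 1 := by
        have h8 := (fib_eq_one_iff π hπ g5').2 (one_of_cN π hπ (by rw [hi', h6.2, pow_zero]))
        rwa [hg5'] at h8
      omega
    subst hn1
    rw [pow_one] at hcard
    -- `|N| = 2`
    have u1 := fib_le_card π hπ (ConjClasses.mk 1)
    have u3 := fib_le_card π hπ (ConjClasses.mk t)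
    have u5 := fib_le_card π hπ (ConjClasses.mk f)
    have u5' := fib_le_card π hπ (ConjClasses.mk f')
    have ua := fib_le_card π hπ (ConjClasses.mk a)
    have ua' := fib_pos π hπ (ConjClasses.mk a)
    rw [hcard] at u1 u3 u5 u5' ua m3 m5 m5'
    have oa : orderOf a = 2 := (hinv a (Or.inl rfl)).2.1
    have v3 : fib π (ConjClasses.mk t) = 2 := by
      simp only [Nat.ModEq] at m3
      omega
    have w5 : cN π g5 = 2 := by
      simp only [Nat.ModEq] at m5
      interval_cases j
      · rw [hj'] at m5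
        omega
      · exact hj'
    have w5' : cN π g5' = 2 := by
      simp only [Nat.ModEq] at m5'
      interval_cases i
      · rw [hi'] at m5'
        omega
      · exact hi'
    have hcl : Nat.card (ConjClasses G) = 8 + fib π (ConjClasses.mk a) := by
      rw [card_classes_eq_sum π]
      have h6 : (Finset.univ : Finset (ConjClasses Q)) =
          {ConjClasses.mk 1, ConjClasses.mk a, ConjClasses.mk t, ConjClasses.mk f, ConjClasses.mk f'} := by
        symm
        apply Finset.eq_univ_of_card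
        rw [← Nat.card_eq_fintype_card, hk]
        rw [Finset.card_insert_of_notMem, Finset.card_insert_of_notMem, Finset.card_insert_of_notMem,
          Finset.card_pair hff]
        · simp only [Finset.mem_insert, Finset.mem_singleton, not_or]
          exact ⟨mtf, mtf'⟩
        · simp only [Finset.mem_insert, Finset.mem_singleton, not_or]
          exact ⟨mqt a oa, mqf a oa, mqf' a oa⟩
        · simp only [Finset.mem_insert, Finset.mem_singleton, not_or]
          exact ⟨m1q a oa, m1t, m1f, m1f'⟩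
      rw [h6, Finset.sum_insert, Finset.sum_insert, Finset.sum_insert, Finset.sum_pair hff]
      · omega
      · simp only [Finset.mem_insert, Finset.mem_singleton, not_or]
        exact ⟨mtf, mtf'⟩
      · simp only [Finset.mem_insert, Finset.mem_singleton, not_or]
        exact ⟨mqt a oa, mqf a oa, mqf' a oa⟩
      · simp only [Finset.mem_insert, Finset.mem_singleton, not_or]
        exact ⟨m1q a oa, m1t, m1f, m1f'⟩
    have hcG : Nat.card G = 120 := by rw [card_eq_ker_mul π hπ, hcard, hQ]
    have hfa := card_faith π hπ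
    rw [hk, hcl] at hfa
    have hsum := sum_faith π hπ
    rw [hQ, hcG] at hsum
    set S : Finset (IrrCharacter G) := Finset.univ.filter fun χ : IrrCharacter G => Faith π χ with hS
    have hsum' : ∑ χ ∈ S, charDegree (χ : G → ℂ) ^ 2 = 60 := by omega
    have hcS : S.card = Nat.card {χ : IrrCharacter G // Faith π χ} := by
      rw [Nat.card_eq_fintype_card, Fintype.card_subtype]
    -- zeros of a faithful character of degree divisible by `r`
    have hzero : ∀ (r : ℕ), r.Prime → ¬ r ^ 2 ∣ 120 → ∀ χ ∈ S, r ∣ charDegree (χ : G → ℂ) →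
        ∀ g : G, r ∣ orderOf (π g) → (χ : G → ℂ) g = 0 := by
      intro r hr hr2 χ _ hd g hg
      exact Cfsg.Agent.H377.TwoConv.eq_zero_of_dz (a := 1) hr (by rwa [pow_one]) (by rw [hcG]; exact hr2)
        (hg.trans (orderOf_map_dvd π g))
    have ord_of : ∀ (g : G) (q : Q), ConjClasses.mk (π g) = ConjClasses.mk q → orderOf (π g) = orderOf q := by
      intro g q h
      by_contra hne'
      exact mk_ne_of_order hne' h
    have h2a : fib π (ConjClasses.mk a) = 1 ∨ fib π (ConjClasses.mk a) = 2 := by omega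
    rcases h2a with h2a | h2a
    · obtain ⟨χ, hχ, hd⟩ := exists_three S (fun χ => charDegree (χ : G → ℂ)) (by omega) hsum'
      have hχF : Faith π χ := (Finset.mem_filter.1 hχ).2
      refine hT (two_of_zc (faith_ne_inf π hπ hχF ψ₄) ?_ z4)
      have h6 := sum_fib_le_zc' π χ {ConjClasses.mk a, ConjClasses.mk t} fun g hg => by
        rcases Finset.mem_insert.1 hg with h | h
        · exact zero_of_fib_one π hπ hχF h2a h
        · have h7 := ord_of g t (Finset.mem_singleton.1 h)
          exact hzero 3 Nat.prime_three (by norm_num) χ hχ hd g (by rw [h7, ht])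
      rw [Finset.sum_pair (mqt a oa)] at h6
      omega
    · obtain ⟨χ, hχ, hd⟩ := exists_five S (fun χ => charDegree (χ : G → ℂ)) (by omega) hsum'
      have hχF : Faith π χ := (Finset.mem_filter.1 hχ).2
      refine hT (two_of_zc (faith_ne_inf π hπ hχF ψ₄) ?_ z4)
      have h6 := sum_fib_le_zc' π χ {ConjClasses.mk f, ConjClasses.mk f'} fun g hg => by
        rcases Finset.mem_insert.1 hg with h | h
        · have h7 := ord_of g f h
          exact hzero 5 Nat.prime_five (by norm_num) χ hχ hd g (by rw [h7, hf])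
        · have h7 := ord_of g f' (Finset.mem_singleton.1 h)
          exact hzero 5 Nat.prime_five (by norm_num) χ hχ hd g (by rw [h7, hf'])
      rw [Finset.sum_pair hff] at h6
      omega

end Cfsg.Agent.H504.TwoZ
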